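import Cfsg.Agent.H67.ExtBase
import Cfsg.Agent.H525.ExtMult

/-!
# S4832, POmega8+(q): the Sylow argument (helper809)
-/

set_option autoImplicit false

open scoped ComplexConjugate
open Cfsg

namespace Cfsg.Agent.H809.D4

open Cfsg.Agent.H576.Ext Cfsg.Agent.Characters Subgroup

universe u

variable {S : Type u} [Group S] [Finite S]

omit [Finite S] in
theorem inn_le_stab {θ : S → ℂ} (hθ : IsIrrCharacter S θ) : (MulAut.conj (G := S)).range ≤ stab θ := by
  rintro _ ⟨x, rfl⟩ s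
  exact Core.isIrr_isClassFunction hθ s x

/-- the orbit of the trivial coset -/
theorem relIndex_three {G : Type*} [Group G] {A T : Subgroup G} (hA : A.index = 3) {ρ κ t : G} (hρ : ρ ∉ A)
    (hρ3 : ρ ^ 3 = 1) (hκA : κ ∈ A) (hκT : κ ∈ T) (hκρ : κ * ρ * κ⁻¹ = ρ⁻¹) (ht : t ∈ T) (htA : t ∉ A) :
    A.relIndex T = 3 := by
  classical
  have hcard : Nat.card (G ⧸ A) = 3 := by rw [← index_eq_card, hA]
  have hfin : Finite (G ⧸ A) := Nat.finite_of_card_ne_zero (by rw [hcard]; norm_num)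
  have hstab : MulAction.stabilizer T ((1 : G) : G ⧸ A) = A.subgroupOf T := by
    ext x
    rw [MulAction.mem_stabilizer_iff, mem_subgroupOf]
    show (((x : G) * 1 : G) : G ⧸ A) = _ ↔ _
    rw [mul_one, eq_comm, QuotientGroup.eq, inv_one, one_mul]
  have h1 : A.relIndex T = Nat.card (MulAction.orbit T ((1 : G) : G ⧸ A)) := by
    rw [relIndex, ← hstab, MulAction.index_stabilizer]
    rfl
  -- the cosets
  have hd1 : ((1 : G) : G ⧸ A) ≠ (ρ : G ⧸ A) := by
    intro h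
    have := QuotientGroup.eq.1 h
    rw [inv_one, one_mul] at this
    exact hρ this
  have hd2 : ((1 : G) : G ⧸ A) ≠ ((ρ⁻¹ : G) : G ⧸ A) := by
    intro h
    have := QuotientGroup.eq.1 h
    rw [inv_one, one_mul] at this
    exact hρ (A.inv_mem_iff.1 this)
  have hd3 : (ρ : G ⧸ A) ≠ ((ρ⁻¹ : G) : G ⧸ A) := by
    intro h
    have := QuotientGroup.eq.1 h
    have e : ρ⁻¹ * ρ⁻¹ = ρ := by
      rw [← mul_inv_rev, inv_eq_iff_mul_eq_one, ← hρ3, pow_succ, pow_two]
    rw [e] at this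
    exact hρ this
  have hall : ∀ x : G ⧸ A, x = ((1 : G) : G ⧸ A) ∨ x = (ρ : G ⧸ A) ∨ x = ((ρ⁻¹ : G) : G ⧸ A) := by
    have := Fintype.ofFinite (G ⧸ A)
    have h8 : ({((1 : G) : G ⧸ A), (ρ : G ⧸ A), ((ρ⁻¹ : G) : G ⧸ A)} : Finset (G ⧸ A)) = Finset.univ := by
      apply Finset.eq_univ_of_card
      rw [← Nat.card_eq_fintype_card, hcard, Finset.card_insert_of_notMem, Finset.card_insert_of_notMem,
        Finset.card_singleton]
      · rw [Finset.mem_singleton]; exact hd3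
      · rw [Finset.mem_insert, Finset.mem_singleton]; exact not_or.2 ⟨hd1, hd2⟩
    intro x
    have : x ∈ ({((1 : G) : G ⧸ A), (ρ : G ⧸ A), ((ρ⁻¹ : G) : G ⧸ A)} : Finset (G ⧸ A)) := by
      rw [h8]; exact Finset.mem_univ _
    simpa only [Finset.mem_insert, Finset.mem_singleton] using this
  have hκ1 : (⟨κ, hκT⟩ : T) • (ρ : G ⧸ A) = ((ρ⁻¹ : G) : G ⧸ A) := by
    show ((κ * ρ : G) : G ⧸ A) = _
    have : κ * ρ = ρ⁻¹ * κ := by rw [← hκρ]; group
    rw [this, QuotientGroup.eq, mul_inv_rev, inv_inv, mul_assoc, mul_inv_cancel, mul_one]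
    exact A.inv_mem hκA
  have hκ2 : (⟨κ, hκT⟩ : T) • ((ρ⁻¹ : G) : G ⧸ A) = (ρ : G ⧸ A) := by
    show ((κ * ρ⁻¹ : G) : G ⧸ A) = _
    have : κ * ρ⁻¹ = ρ * κ := by
      have h2 : κ * ρ⁻¹ * κ⁻¹ = ρ := by
        have := congrArg (·⁻¹) hκρ
        simp only [mul_inv_rev, inv_inv] at this
        rw [← mul_assoc] at this
        exact this
      exact mul_inv_eq_iff_eq_mul.1 h2
    rw [this, QuotientGroup.eq, mul_inv_rev, mul_assoc, inv_mul_cancel, mul_one]
    exact A.inv_mem hκA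
  have htop : MulAction.orbit T ((1 : G) : G ⧸ A) = Set.univ := by
    rw [Set.eq_univ_iff_forall]
    have m1 : ((1 : G) : G ⧸ A) ∈ MulAction.orbit T ((1 : G) : G ⧸ A) := MulAction.mem_orbit_self _
    have m2 : (t : G ⧸ A) ∈ MulAction.orbit T ((1 : G) : G ⧸ A) := ⟨⟨t, ht⟩, by
      show ((t * 1 : G) : G ⧸ A) = _
      rw [mul_one]⟩
    have m3 : ∀ (x : G ⧸ A), x ∈ MulAction.orbit T ((1 : G) : G ⧸ A) →
        (⟨κ, hκT⟩ : T) • x ∈ MulAction.orbit T ((1 : G) : G ⧸ A) := fun x hx =>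
      MulAction.mem_orbit_of_mem_orbit _ hx
    have ht1 : (t : G ⧸ A) ≠ ((1 : G) : G ⧸ A) := by
      intro h
      have := QuotientGroup.eq.1 h.symm
      rw [inv_one, one_mul] at this
      exact htA this
    intro x
    rcases hall (t : G ⧸ A) with h | h | h
    · exact absurd h ht1
    · have m4 := m3 _ m2
      rw [h, hκ1] at m4
      rw [h] at m2
      rcases hall x with rfl | rfl | rfl
      · exact m1
      · exact m2
      · exact m4
    · have m4 := m3 _ m2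
      rw [h, hκ2] at m4
      rw [h] at m2
      rcases hall x with rfl | rfl | rfl
      · exact m1
      · exact m4
      · exact m2
  rw [h1, htop, ← hcard]
  exact Nat.card_congr (Equiv.Set.univ _)

/-- the Sylow `ℓ`-part, if `T / Inn` has cyclic Sylow `ℓ`-subgroups of order at most `ℓ` -/
theorem exists_sylow_part {θ : S → ℂ} (hZ : Subgroup.center S = ⊥) (hθ : IsIrrCharacter S θ) {ℓ : ℕ} (hℓ : ℓ.Prime)
    {T : Subgroup (MulAut S)} (hI : (MulAut.conj (G := S)).range ≤ T) (hT : T ≤ stab θ)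
    (h : ¬ ℓ ^ 2 ∣ (MulAut.conj (G := S)).range.relIndex T) :
    ∃ P : Subgroup (MulAut S), (MulAut.conj (G := S)).range ≤ P ∧ P ≤ T ∧
      ¬ ℓ ∣ P.relIndex T ∧ ExtTo θ P := by
  classical
  have : Fact ℓ.Prime := ⟨hℓ⟩
  set I := (MulAut.conj (G := S)).range with hIdef
  have hIn : I.Normal := by
    constructor
    rintro _ ⟨x, rfl⟩ g
    refine ⟨g x, ?_⟩
    ext y
    simp
  have hn : (I.subgroupOf T).Normal := hIn.subgroupOf T
  let T' := T ⧸ (I.subgroupOf T)
  obtain ⟨R⟩ : Nonempty (Sylow ℓ T') := inferInstance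
  let π : T →* T' := QuotientGroup.mk' (I.subgroupOf T)
  have hπ : Function.Surjective π := QuotientGroup.mk'_surjective _
  let P0 : Subgroup T := (R : Subgroup T').comap π
  have hcardT' : Nat.card T' = I.relIndex T := rfl
  have hR : Nat.card R = 1 ∨ Nat.card R = ℓ := by
    obtain ⟨k, hk⟩ := (IsPGroup.iff_card (p := ℓ)).1 R.isPGroup'
    have h1 : Nat.card R ∣ I.relIndex T := hcardT' ▸ card_subgroup_dvd_card (R : Subgroup T')
    have h2 : k < 2 := by
      by_contra hcon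
      apply h
      exact (pow_dvd_pow ℓ (not_lt.1 hcon)).trans (hk ▸ h1)
    rw [hk]
    interval_cases k
    · left; rfl
    · right; exact pow_one ℓ
  have hcyc : IsCyclic (R : Subgroup T') := by
    rcases hR with h1 | h1
    · have : Subsingleton (R : Subgroup T') := (Nat.card_eq_one_iff_unique.1 h1).1
      infer_instance
    · exact isCyclic_of_prime_card h1
  have hle : I ≤ P0.map T.subtype := by
    intro x hx
    refine ⟨⟨x, hI hx⟩, ?_, rfl⟩
    show π ⟨x, hI hx⟩ ∈ (R : Subgroup T')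
    have : π ⟨x, hI hx⟩ = 1 := (QuotientGroup.eq_one_iff _).2 hx
    rw [this]
    exact one_mem _
  refine ⟨P0.map T.subtype, hle, ?_, ?_, ?_⟩
  · rintro _ ⟨x, -, rfl⟩
    exact x.2
  · have h1 : (P0.map T.subtype).relIndex T = (R : Subgroup T').index := by
      have h2 : (P0.map T.subtype).subgroupOf T = P0 := by
        rw [subgroupOf, comap_map_eq_self_of_injective T.subtype_injective]
      rw [relIndex, h2]
      exact index_comap_of_surjective _ hπ
    rw [h1]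
    exact R.not_dvd_index
  · apply extTo_of_cyc hZ hθ hle
    · rintro _ ⟨x, -, rfl⟩
      exact hT x.2
    obtain ⟨r, hr⟩ := hcyc.exists_generator
    obtain ⟨γ, hγ⟩ := hπ r.1
    refine ⟨γ.1, ⟨γ, ?_, rfl⟩, ?_⟩
    · show π γ ∈ (R : Subgroup T')
      rw [hγ]
      exact r.2
    · rintro _ ⟨α, hα, rfl⟩
      obtain ⟨k, hk⟩ := mem_zpowers_iff.1 (hr ⟨π α, hα⟩)
      have hk' : r.1 ^ k = π α := congrArg Subtype.val hk
      have h3 : π (α * (γ ^ k)⁻¹) = 1 := by
        rw [map_mul, map_inv, map_zpow, hγ, hk', mul_inv_cancel]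
      have h4 : (α * (γ ^ k)⁻¹ : T) ∈ I.subgroupOf T := (QuotientGroup.eq_one_iff _).1 h3
      obtain ⟨s, hs⟩ := h4
      refine ⟨k, s, ?_⟩
      rw [hs]
      show (α : MulAut S) = ((α * (γ ^ k)⁻¹ : T) : MulAut S) * (γ : MulAut S) ^ k
      rw [coe_mul, coe_inv, coe_zpow, inv_mul_cancel_right]

theorem ext_index_three (hZ : Subgroup.center S = ⊥) {θ : S → ℂ} (hθ : IsIrrCharacter S θ)
    (A : Subgroup (MulAut S)) (hA : A.index = 3) (hI : (MulAut.conj (G := S)).range ≤ A)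
    (hext : ExtTo θ (A ⊓ stab θ)) (h3 : ¬ 3 ∣ (MulAut.conj (G := S)).range.relIndex (A ⊓ stab θ))
    {ρ κ : MulAut S} (hρ : ρ ∉ A) (hρ3 : ρ ^ 3 = 1) (hκA : κ ∈ A) (hκθ : κ ∈ stab θ)
    (hκρ : κ * ρ * κ⁻¹ = ρ⁻¹) : ExtTo θ (stab θ) := by
  by_cases hle : stab θ ≤ A
  · rwa [inf_eq_right.2 hle] at hext
  obtain ⟨t, ht, htA⟩ := SetLike.not_le_iff_exists.1 hle
  have h1 := relIndex_three hA hρ hρ3 hκA hκθ hκρ ht htA
  have hIs := inn_le_stab hθ
  apply extTo_of_sylow hZ hθ hIs le_rfl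
  intro ℓ hℓ
  by_cases h : ℓ = 3
  · subst h
    apply exists_sylow_part hZ hθ hℓ hIs le_rfl
    have h4 := relIndex_mul_relIndex _ _ _ (le_inf hI hIs) (inf_le_right : A ⊓ stab θ ≤ stab θ)
    rw [inf_relIndex_right, h1] at h4
    rw [← h4]
    intro hd
    apply h3
    have : 3 * 3 ∣ 3 * (MulAut.conj (G := S)).range.relIndex (A ⊓ stab θ) := by
      rw [mul_comm 3 (relIndex _ _), ← pow_two]
      exact hd
    exact Nat.dvd_of_mul_dvd_mul_left (by norm_num) this
  · refine ⟨A ⊓ stab θ, le_inf hI hIs, inf_le_right, ?_, hext⟩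
    rw [inf_relIndex_right, h1]
    intro hd
    exact h ((Nat.prime_dvd_prime_iff_eq hℓ Nat.prime_three).1 hd)

end Cfsg.Agent.H809.D4
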