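import Cfsg.Agent.H576.Ext.Levi
import Cfsg.Agent.H477.HC.Levi

/-!
# S4832, POmega8+(q): Levi elements of square determinant (helper809)
-/

set_option autoImplicit false

open scoped ComplexConjugate commutatorElement
open Cfsg

namespace Cfsg.Agent.H809.D4

open Cfsg.Agent.H576.Ext Cfsg.Agent.H477.HC Cfsg.Agent.H477.HC.CForm Cfsg.Agent.H53.HC Cfsg.Agent.Characters Module

universe u v

variable {K : Type u} [Field K] {V : Type v} [AddCommGroup V] [Module K V] {F : CForm K V}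

/-- isometries from dual bases of opposite subspaces -/
theorem exists_of_frames [FiniteDimensional K V] {k : ℕ} {W W' : Submodule K V} (hW : W ∈ F.Om k) (hW' : W' ∈ F.Om k)
    (h0 : W ⊓ F.perp W' = ⊥) (b : Basis (Fin k) K W) (b' : Basis (Fin k) K W')
    (hb : ∀ i j, F.B (b i) (b' j) = if i = j then 1 else 0) (x y : Fin k → V) (hx : ∀ i, x i ∈ W ⊔ W')
    (hy : ∀ i, y i ∈ W ⊔ W') (hxx : ∀ i j, F.B (x i) (x j) = 0) (hyy : ∀ i j, F.B (y i) (y j) = 0)
    (hxQ : ∀ i, F.Q (x i) = 0) (hyQ : ∀ i, F.Q (y i) = 0) (hxy : ∀ i j, F.B (x i) (y j) = if i = j then 1 else 0) :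
    ∃ g : F.iso, (∀ i, (g : V ≃ₗ[K] V) (b i) = x i) ∧ (∀ i, (g : V ≃ₗ[K] V) (b' i) = y i) ∧
      ∀ v, (∀ w ∈ W, F.B v w = 0) → (∀ w ∈ W', F.B v w = 0) → (g : V ≃ₗ[K] V) v = v := by
  classical
  have h0' := opp_symm hW.2 hW'.2 h0
  have tx := F.TS_span hxx hxQ
  have ty := F.TS_span hyy hyQ
  let f₁ : W →ₗ[K] V := b.constr K x
  let f₂ : W' →ₗ[K] V := b'.constr K y
  have e1 : ∀ w : W, f₁ w = ∑ i, b.repr w i • x i := fun w => Basis.constr_apply_fintype _ _ _ _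
  have e2 : ∀ w : W', f₂ w = ∑ i, b'.repr w i • y i := fun w => Basis.constr_apply_fintype _ _ _ _
  have m1 : ∀ w, f₁ w ∈ Submodule.span K (Set.range x) := fun w => by
    rw [e1]; exact (Submodule.mem_span_range_iff_exists_fun K).2 ⟨_, rfl⟩
  have m2 : ∀ w, f₂ w ∈ Submodule.span K (Set.range y) := fun w => by
    rw [e2]; exact (Submodule.mem_span_range_iff_exists_fun K).2 ⟨_, rfl⟩
  have lx : Submodule.span K (Set.range x) ≤ W ⊔ W' := by
    rw [Submodule.span_le]; rintro _ ⟨i, rfl⟩; exact hx i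
  have ly : Submodule.span K (Set.range y) ≤ W ⊔ W' := by
    rw [Submodule.span_le]; rintro _ ⟨i, rfl⟩; exact hy i
  have e0 : ∀ w : W, (w : V) = ∑ i, b.repr w i • (b i : V) := by
    intro w
    conv_lhs => rw [← b.sum_repr w, Submodule.coe_sum]
    rfl
  have e0' : ∀ w : W', (w : V) = ∑ i, b'.repr w i • (b' i : V) := by
    intro w
    conv_lhs => rw [← b'.sum_repr w, Submodule.coe_sum]
    rfl
  obtain ⟨g, hg1, hg2, hg3⟩ := F.exists_ext hW.1 hW'.1
    (fun w hw hw' => by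
      have : w ∈ W ⊓ F.perp W' := ⟨hw, hw'⟩
      rw [h0] at this
      exact (Submodule.mem_bot K).1 this)
    (fun w hw hw' => by
      have : w ∈ W' ⊓ F.perp W := ⟨hw, fun w' hw'' => F.B_eq_zero (hw' w' hw'')⟩
      rw [h0'] at this
      exact (Submodule.mem_bot K).1 this)
    f₁ f₂ (fun w => lx (m1 w)) (fun w => ly (m2 w)) (fun w => tx.1 _ (m1 w)) (fun w => ty.1 _ (m2 w))
    (fun w w' => tx.2 _ (m1 w) _ (m1 w')) (fun w w' => ty.2 _ (m2 w) _ (m2 w')) (fun w w' => by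
      rw [e1, e2, B_sum_left]
      conv_rhs => rw [e0 w, e0' w', B_sum_left]
      refine Finset.sum_congr rfl fun i _ => ?_
      rw [B_sum_right, B_sum_right]
      congr 1
      refine Finset.sum_congr rfl fun j _ => ?_
      rw [hxy, hb])
  refine ⟨g, fun i => ?_, fun i => ?_, hg3⟩
  · rw [hg1]; exact b.constr_basis K x i
  · rw [hg2]; exact b'.constr_basis K y i

/-- an element acting on `W`, `W'` and fixing the complement is in `TT W` -/
theorem mem_TT_of_fix [FiniteDimensional K V] {W W' : Submodule K V} {k : ℕ} (hW : W ∈ F.Om k) (hW' : W' ∈ F.Om k)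
    (h0 : W ⊓ F.perp W' = ⊥) {g : F.iso} (h1 : ∀ w ∈ W, (g : V ≃ₗ[K] V) w ∈ W)
    (h2 : ∀ v, (∀ w ∈ W, F.B v w = 0) → (∀ w ∈ W', F.B v w = 0) → (g : V ≃ₗ[K] V) v = v) : g ∈ F.TT W := by
  have h0' := opp_symm hW.2 hW'.2 h0
  obtain ⟨P, hP⟩ := F.exists_proj (W₀ := W) (W' := W')
    (fun w hw hw' => by
      have : w ∈ W ⊓ F.perp W' := ⟨hw, hw'⟩
      rw [h0] at this
      exact (Submodule.mem_bot K).1 this)
    (fun w hw hw' => by
      have : w ∈ W' ⊓ F.perp W := ⟨hw, fun w' hw'' => F.B_eq_zero (hw' w' hw'')⟩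
      rw [h0'] at this
      exact (Submodule.mem_bot K).1 this)
  refine F.mem_TT_of hW.1 fun v hv => ?_
  have e1 : (g : V ≃ₗ[K] V) (v - P v) = v - P v := h2 _
    (fun w hw => by rw [F.B_sub_left, hv w hw, hW.1.2 _ (P v).2 w hw, sub_zero])
    (fun w hw => by rw [F.B_sub_left, ← hP v w hw, sub_self])
  have e2 : (g : V ≃ₗ[K] V) v - v = (g : V ≃ₗ[K] V) (P v) - P v := by
    rw [map_sub] at e1
    rw [← sub_eq_zero] at e1 ⊢
    rw [← e1]
    abel
  rw [e2]
  exact W.sub_mem (h1 _ (P v).2) (P v).2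

/-- the scalar Levi element is a commutator -/
theorem exists_scalar_levi [FiniteDimensional K V] (hσ : ∀ a, F.σ a = a) {W W' : Submodule K V}
    (hW : W ∈ F.Om 2) (hW' : W' ∈ F.Om 2) (h0 : W ⊓ F.perp W' = ⊥) (t : Kˣ) :
    ∃ g ∈ commutator F.iso, g ∈ F.TT W ∧ g ∈ F.TT W' ∧ (∀ w ∈ W, (g : V ≃ₗ[K] V) w = (t : K) • w) ∧
      ∀ v, (∀ w ∈ W, F.B v w = 0) → (∀ w ∈ W', F.B v w = 0) → (g : V ≃ₗ[K] V) v = v := by
  classical
  obtain ⟨b, b', hb⟩ := exists_dual_basis hW.2 hW'.2 h0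
  have h0' := opp_symm hW.2 hW'.2 h0
  have hBb' : ∀ i j, F.B (b' i) (b j) = if i = j then F.ε else 0 := by
    intro i j
    rw [F.B_symm, hb]
    by_cases hij : i = j
    · rw [if_pos hij, if_pos hij.symm, map_one, mul_one]
    · rw [if_neg hij, if_neg (Ne.symm hij), map_zero, mul_zero]
  have hbb : ∀ i j, F.B (b i) (b j) = 0 := fun i j => hW.1.2 _ (b i).2 _ (b j).2
  have hbb' : ∀ i j, F.B (b' i) (b' j) = 0 := fun i j => hW'.1.2 _ (b' i).2 _ (b' j).2
  have hbQ : ∀ i, F.Q (b i) = 0 := fun i => hW.1.1 _ (b i).2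
  have hbQ' : ∀ i, F.Q (b' i) = 0 := fun i => hW'.1.1 _ (b' i).2
  have mb : ∀ i, (b i : V) ∈ W ⊔ W' := fun i => (le_sup_left : W ≤ W ⊔ W') (b i).2
  have mb' : ∀ i, (b' i : V) ∈ W ⊔ W' := fun i => (le_sup_right : W' ≤ W ⊔ W') (b' i).2
  have ht : (t : K) ≠ 0 := t.ne_zero
  have hε := F.ε_ne
  have hεσ : F.ε * F.ε = 1 := by have := F.hε; rwa [hσ] at this
  obtain ⟨u, hu1, hu2, hu3⟩ := exists_of_frames hW hW' h0 b b' hb
    (![(t : K) • (b 0 : V), b 1]) (![(t : K)⁻¹ • (b' 0 : V), b' 1])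
    (by
      intro i; fin_cases i
      · exact Submodule.smul_mem _ _ (mb 0)
      · exact mb 1)
    (by
      intro i; fin_cases i
      · exact Submodule.smul_mem _ _ (mb' 0)
      · exact mb' 1)
    (by
      intro i j
      fin_cases i <;> fin_cases j <;> simp [F.B_smul_left, F.B_smul_right, hbb])
    (by
      intro i j
      fin_cases i <;> fin_cases j <;> simp [F.B_smul_left, F.B_smul_right, hbb'])
    (by
      intro i
      fin_cases i <;> simp [F.Q_smul, hbQ])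
    (by
      intro i
      fin_cases i <;> simp [F.Q_smul, hbQ'])
    (by
      intro i j
      fin_cases i <;> fin_cases j <;> simp [F.B_smul_left, F.B_smul_right, hb, hσ, ht])
  obtain ⟨s, hs1, hs2, hs3⟩ := exists_of_frames hW hW' h0 b b' hb
    (![(b' 1 : V), b 0]) (![F.ε • (b 1 : V), b' 0])
    (by
      intro i; fin_cases i
      · exact mb' 1
      · exact mb 0)
    (by
      intro i; fin_cases i
      · exact Submodule.smul_mem _ _ (mb 1)
      · exact mb' 0)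
    (by
      intro i j
      fin_cases i <;> fin_cases j <;> simp [hbb, hbb', hb, hBb'])
    (by
      intro i j
      fin_cases i <;> fin_cases j <;> simp [F.B_smul_left, F.B_smul_right, hbb, hbb', hb, hBb'])
    (by
      intro i
      fin_cases i <;> simp [hbQ, hbQ'])
    (by
      intro i
      fin_cases i <;> simp [F.Q_smul, hbQ, hbQ'])
    (by
      intro i j
      fin_cases i <;> fin_cases j <;> simp [F.B_smul_right, hb, hbb, hbb', hBb', hσ, hεσ])
  have u0 : (u : V ≃ₗ[K] V) (b 0) = (t : K) • (b 0 : V) := hu1 0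
  have u1 : (u : V ≃ₗ[K] V) (b 1) = b 1 := hu1 1
  have u0' : (u : V ≃ₗ[K] V) (b' 0) = (t : K)⁻¹ • (b' 0 : V) := hu2 0
  have u1' : (u : V ≃ₗ[K] V) (b' 1) = b' 1 := hu2 1
  have s0 : (s : V ≃ₗ[K] V) (b 0) = b' 1 := hs1 0
  have s1 : (s : V ≃ₗ[K] V) (b 1) = b 0 := hs1 1
  have s0' : (s : V ≃ₗ[K] V) (b' 0) = F.ε • (b 1 : V) := hs2 0
  have s1' : (s : V ≃ₗ[K] V) (b' 1) = b' 0 := hs2 1
  -- the inverses
  have ui0 : ((u⁻¹ : F.iso) : V ≃ₗ[K] V) (b 0) = (t : K)⁻¹ • (b 0 : V) := by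
    have := inv_apply' u (b 0)
    rw [u0, map_smul] at this
    rw [← this, smul_smul, inv_mul_cancel₀ ht, one_smul, this]
  have ui1 : ((u⁻¹ : F.iso) : V ≃ₗ[K] V) (b 1) = b 1 := by
    have := inv_apply' u (b 1)
    rwa [u1] at this
  have ui0' : ((u⁻¹ : F.iso) : V ≃ₗ[K] V) (b' 0) = (t : K) • (b' 0 : V) := by
    have := inv_apply' u (b' 0)
    rw [u0', map_smul] at this
    rw [← this, smul_smul, mul_inv_cancel₀ ht, one_smul, this]
  have ui1' : ((u⁻¹ : F.iso) : V ≃ₗ[K] V) (b' 1) = b' 1 := by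
    have := inv_apply' u (b' 1)
    rwa [u1'] at this
  have si0 : ((s⁻¹ : F.iso) : V ≃ₗ[K] V) (b 0) = b 1 := by
    have := inv_apply' s (b 1)
    rwa [s1] at this
  have si1 : ((s⁻¹ : F.iso) : V ≃ₗ[K] V) (b 1) = F.ε⁻¹ • (b' 0 : V) := by
    have := inv_apply' s (b' 0)
    rw [s0', map_smul] at this
    rw [← this, smul_smul, inv_mul_cancel₀ hε, one_smul]
  have si0' : ((s⁻¹ : F.iso) : V ≃ₗ[K] V) (b' 0) = b' 1 := by
    have := inv_apply' s (b' 1)
    rwa [s1'] at this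
  have si1' : ((s⁻¹ : F.iso) : V ≃ₗ[K] V) (b' 1) = b 0 := by
    have := inv_apply' s (b 0)
    rwa [s0] at this
  let g : F.iso := s * u⁻¹ * s⁻¹ * u
  have hg : ∀ v, (g : V ≃ₗ[K] V) v = (s : V ≃ₗ[K] V) (((u⁻¹ : F.iso) : V ≃ₗ[K] V)
    (((s⁻¹ : F.iso) : V ≃ₗ[K] V) ((u : V ≃ₗ[K] V) v))) := fun v => rfl
  have g0 : (g : V ≃ₗ[K] V) (b 0) = (t : K) • (b 0 : V) := by
    rw [hg, u0, map_smul, si0, map_smul, ui1, map_smul, s1]
  have g1 : (g : V ≃ₗ[K] V) (b 1) = (t : K) • (b 1 : V) := by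
    rw [hg, u1, si1, map_smul, ui0', map_smul, map_smul, s0', smul_smul, smul_smul]
    congr 1
    field_simp
  have g0' : (g : V ≃ₗ[K] V) (b' 0) = (t : K)⁻¹ • (b' 0 : V) := by
    rw [hg, u0', map_smul, si0', map_smul, ui1', map_smul, s1']
  have g1' : (g : V ≃ₗ[K] V) (b' 1) = (t : K)⁻¹ • (b' 1 : V) := by
    rw [hg, u1', si1', ui0, map_smul, s0]
  have g3 : ∀ v, (∀ w ∈ W, F.B v w = 0) → (∀ w ∈ W', F.B v w = 0) → (g : V ≃ₗ[K] V) v = v := by
    intro v hv hv'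
    have a1 := hu3 v hv hv'
    have a2 : ((u⁻¹ : F.iso) : V ≃ₗ[K] V) v = v := by
      have := inv_apply' u v
      rwa [a1] at this
    have a3 := hs3 v hv hv'
    have a4 : ((s⁻¹ : F.iso) : V ≃ₗ[K] V) v = v := by
      have := inv_apply' s v
      rwa [a3] at this
    rw [hg, a1, a4, a2, a3]
  have gW : ∀ w ∈ W, (g : V ≃ₗ[K] V) w = (t : K) • w := by
    intro w hw
    have e0 : w = b.repr ⟨w, hw⟩ 0 • (b 0 : V) + b.repr ⟨w, hw⟩ 1 • (b 1 : V) := by
      have := congrArg Subtype.val (b.sum_repr ⟨w, hw⟩)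
      rw [Fin.sum_univ_two] at this
      exact this.symm
    conv_lhs => rw [e0]
    conv_rhs => rw [e0]
    rw [map_add, map_smul, map_smul, g0, g1, smul_add, smul_comm, smul_comm (t : K) _ (b 1 : V)]
  have gW' : ∀ w ∈ W', (g : V ≃ₗ[K] V) w = (t : K)⁻¹ • w := by
    intro w hw
    have e0 : w = b'.repr ⟨w, hw⟩ 0 • (b' 0 : V) + b'.repr ⟨w, hw⟩ 1 • (b' 1 : V) := by
      have := congrArg Subtype.val (b'.sum_repr ⟨w, hw⟩)
      rw [Fin.sum_univ_two] at this
      exact this.symm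
    conv_lhs => rw [e0]
    conv_rhs => rw [e0]
    rw [map_add, map_smul, map_smul, g0', g1', smul_add, smul_comm, smul_comm (t : K)⁻¹ _ (b' 1 : V)]
  refine ⟨g, ?_, mem_TT_of_fix hW hW' h0 (fun w hw => by rw [gW w hw]; exact W.smul_mem _ hw) g3,
    mem_TT_of_fix hW' hW h0' (fun w hw => by rw [gW' w hw]; exact W'.smul_mem _ hw) fun v hv hv' => g3 v hv' hv,
    gW, g3⟩
  have : g = ⁅s, u⁻¹⁆ := by
    rw [commutatorElement_def, inv_inv]
  rw [this, commutator_def]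
  exact Subgroup.commutator_mem_commutator trivial trivial

/-- **the Levi elements of square determinant** -/
theorem hasLevi_sq [FiniteDimensional K V] (hσ : ∀ a, F.σ a = a) {N : Subgroup F.iso} (hcomm : commutator F.iso ≤ N)
    (hN : HasRoots F N) : HasLevi F N ((powMonoidHom 2 : Kˣ →* Kˣ).range) 2 := by
  intro W hW W' hW' h0 g hg hg' h hdet h3
  obtain ⟨t, ht⟩ := hdet
  obtain ⟨x, hx, hxT, hxT', hxW, hx3⟩ := exists_scalar_levi hσ hW hW' h0 t
  have hmem : g * x⁻¹ ∈ N := by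
    have hi : W.map (F.iso.subtype (g * x⁻¹) : V →ₗ[K] V) = W := (F.TT W).mul_mem hg ((F.TT W).inv_mem hxT) |>.1
    refine hasLevi_bot F hN 2 W hW W' hW' h0 (g * x⁻¹) ((F.TT W).mul_mem hg ((F.TT W).inv_mem hxT))
      ((F.TT W').mul_mem hg' ((F.TT W').inv_mem hxT')) hi ?_ fun v hv hv' => ?_
    · rw [Subgroup.mem_bot]
      have e1 : res (F.iso.subtype (g * x⁻¹)) W hi * res (F.iso.subtype x) W hxT.1 = res (F.iso.subtype g) W h := by
        ext w
        show ((g * x⁻¹ : F.iso) : V ≃ₗ[K] V) ((x : V ≃ₗ[K] V) w) = (g : V ≃ₗ[K] V) w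
        rw [mul_apply', inv_apply']
      have e2 : LinearEquiv.det (res (F.iso.subtype x) W hxT.1) = t ^ 2 := by
        have : res (F.iso.subtype x) W hxT.1 = LinearEquiv.smulOfUnit t := by
          ext w
          show (x : V ≃ₗ[K] V) w = _
          rw [hxW w w.2]
          rfl
        rw [this]
        apply Units.ext
        rw [LinearEquiv.coe_det]
        have e3 : ((LinearEquiv.smulOfUnit t : W ≃ₗ[K] W) : W →ₗ[K] W) = (t : K) • LinearMap.id := by
          ext w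
          rfl
        rw [e3, LinearMap.det_smul, LinearMap.det_id, mul_one, hW.2, Units.val_pow_eq_pow_val]
      have e3 := congrArg LinearEquiv.det e1
      rw [map_mul, e2, ← ht] at e3
      have e4 : (powMonoidHom 2 : Kˣ →* Kˣ) t = t ^ 2 := rfl
      rw [e4] at e3
      exact mul_eq_right.1 e3
    · have a1 := hx3 v hv hv'
      have a2 : ((x⁻¹ : F.iso) : V ≃ₗ[K] V) v = v := by
        have := inv_apply' x v
        rwa [a1] at this
      rw [mul_apply', a2, h3 v hv hv']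
  have := N.mul_mem hmem (hcomm hx)
  rwa [inv_mul_cancel_right] at this

end Cfsg.Agent.H809.D4
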