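import Cfsg.Agent.H576.Ext.SemiL
import Cfsg.Agent.H809.D4.Levi
import Cfsg.Agent.H809.D4.Trans
import Cfsg.Agent.H809.D4.Par
import Cfsg.Agent.H809.D4.Abs
import Cfsg.Agent.H989.OutOrth.Four
import Cfsg.Agent.H477.HC.Frames

/-!
# S4832, POmega8+(q), q ≥ 4, q ≠ 5: the generic character (helper809)
-/

set_option autoImplicit false

open scoped ComplexConjugate commutatorElement
open Cfsg

namespace Cfsg.Agent.H809.D4

open Cfsg.Agent.H576.Ext Cfsg.Agent.H477.HC Cfsg.Agent.H477.HC.CForm Cfsg.Agent.H53.HC Cfsg.Agent.Characters Module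
  QuadraticMap Cfsg.Agent.LieClassical.OrthCore Cfsg.Agent.LieClassical.OrthTrans
  Cfsg.Agent.LieClassical.OrthSimple Cfsg.Agent.ClassicalGeometry.OrthSemi Cfsg.Agent.ClassicalGeometry.OrthAut1
  Cfsg.Agent.H624.ExtO Cfsg.Agent.H989.OutOrth.Basic

universe u v

variable {K : Type u} [Field K] {V : Type v} [AddCommGroup V] [Module K V] {F : CForm K V}

/-- the automorphism induced by an isometry fixes `θ` if `θ` is the restriction of a class function -/
theorem psi_ofO_mem_stab (h : IsQuad F) (hG : Good (quadOf F h)) {θ : P (quadOf F h) → ℂ} {χ : F.iso → ℂ}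
    (hχ : IsClassFunction F.iso χ) (hθχ : ∀ n : commutator F.iso, θ (qE h hG n) = χ n) (r : O (quadOf F h)) :
    Psi (quadOf F h) (ofO (quadOf F h) r) ∈ stab θ := by
  intro s
  obtain ⟨n, rfl⟩ := qE_surjective h hG s
  have hr : (r : V ≃ₗ[K] V) ∈ F.iso := by rw [iso_eq h]; exact r.2
  let r' : F.iso := ⟨r, hr⟩
  let n' : commutator F.iso := ⟨r' * n * r'⁻¹, (inferInstance : (commutator F.iso).Normal).conj_mem _ n.2 r'⟩
  have e1 : Psi (quadOf F h) (ofO (quadOf F h) r) (qE h hG n) = qE h hG n' := by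
    rw [qE_apply, qE_apply, Psi_mk]
    rfl
  rw [e1, hθχ, hθχ]
  exact hχ n r'

/-- the automorphisms of `A` fixing `θ` are induced by similitudes -/
theorem sg_eq_one [Finite K] [FiniteDimensional K V] [Finite V] (h : IsQuad F) (hG : Good (quadOf F h)) [Fintype (F.Om 2)]
    [Fintype (commutator F.iso)]
    {c : GL (Fin 2) K → ℂ} (hc : CusG K 2 (RingHom.id K) c) {D : Subgroup Kˣ}
    (hN : HasRoots F (commutator F.iso)) (hD : HasLevi F (commutator F.iso) D 2)
    (hgen : ∀ τ : K ≃+* K, (∃ x, τ x ≠ x) → GenAt K 2 (RingHom.id K) D τ c) {θ : P (quadOf F h) → ℂ}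
    (hθ : IsIrrCharacter _ θ)
    (h0 : classInner (fun n : commutator F.iso => F.hc c (fun _ _ => 1) n) (fun n => θ (qE h hG n)) ≠ 0)
    {M : Gam (quadOf F h)} (hM : Psi (quadOf F h) M ∈ stab θ) : sg hG M = 1 := by
  have hfi := finite_iso F
  obtain ⟨M, τ, lam, hS⟩ := M
  have hsg := sg_eq hG (M := ⟨M, τ, lam, hS⟩) hS
  rw [hsg]
  by_contra hne
  have hτ : ∃ x, τ x ≠ x := by
    by_contra hcon
    push Not at hcon
    exact hne (RingEquiv.ext hcon)
  have hσ : F.σ = RingHom.id K := RingHom.ext h.σ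
  obtain ⟨g1, g2⟩ := hgen τ hτ
  let γ : V ≃+ V := { M with map_add' := hS.add }
  let s : Semi F := ⟨τ, lam, hS.ne, γ, hS.smul, fun v w => by
    rw [← polar_quadOf h, ← polar_quadOf h]
    exact hS.polar v w, hS.form⟩
  -- the automorphism of `N`
  choose α hα using fun n : commutator F.iso => semi_comm s n
  have hα1 : ∀ n, ((α n : commutator F.iso) : F.iso) = s.conj n := fun n => s.eq_conj (hα n)
  let αe : commutator F.iso →* commutator F.iso :=
    { toFun := α
      map_one' := Subtype.ext (by rw [hα1]; exact map_one _)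
      map_mul' := fun x y => Subtype.ext (by rw [hα1, Subgroup.coe_mul, Subgroup.coe_mul, hα1, hα1, map_mul]) }
  have hinj : Function.Injective αe := by
    intro x y hxy
    have hxy' : α x = α y := hxy
    apply Subtype.ext
    apply Subtype.ext
    ext v
    have h1 := hα x v
    have h2 := hα y v
    rw [hxy'] at h1
    exact s.γ.injective (h1.symm.trans h2)
  let αE : commutator F.iso ≃* commutator F.iso :=
    MulEquiv.ofBijective αe (Finite.injective_iff_bijective.1 hinj)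
  refine eq_one_of_fix F le_rfl hN hD hc.irr hc.cusp τ g1 (by rw [hσ]; exact g2)
    (θ := fun n => θ (qE h hG n)) (Core.isIrr_comp (qE h hG) (qE_surjective h hG) hθ) h0 γ hS.smul
    (fun v w => ?_) (fun v => ?_) αE (fun n v => hα n v) (fun n => ?_)
  · have h1 := s.hB v w
    constructor
    · intro h2
      rw [show F.B (γ v) (γ w) = lam * τ (F.B v w) from h1] at h2
      exact (map_eq_zero τ).1 ((mul_eq_zero.1 h2).resolve_left hS.ne)
    · intro h2
      rw [show F.B (γ v) (γ w) = lam * τ (F.B v w) from h1, h2, map_zero, mul_zero]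
  · have h1 := s.hQ v
    constructor
    · intro h2
      rw [show F.Q (γ v) = lam * τ (F.Q v) from h1] at h2
      exact (map_eq_zero τ).1 ((mul_eq_zero.1 h2).resolve_left hS.ne)
    · intro h2
      rw [show F.Q (γ v) = lam * τ (F.Q v) from h1, h2, map_zero, mul_zero]
  · rw [← hM (qE h hG n)]
    congr 1
    show qE h hG (α n) = _
    rw [qE_apply, qE_apply, Psi_mk]
    congr 1
    apply Subtype.ext
    rw [coe_conjE]
    ext v
    obtain ⟨w, rfl⟩ := M.surjective v
    rw [toE_apply]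
    exact (hα n w).trans (conjLin_apply' (Q := quadOf F h) ⟨M, τ, lam, hS⟩ (toE h hG n).1 w).symm

/-- the index of the inner automorphisms in a group of automorphisms induced by similitudes -/
theorem relIndex_dvd [Finite V] {Q : QuadraticForm K V} (hG : Good Q) {B : Subgroup (MulAut (P Q))}
    (hB : ∀ α ∈ B, ∃ M : Gam Q, Psi Q M = α ∧ sg hG M = 1) :
    (MulAut.conj (G := P Q)).range.relIndex B ∣ Nat.card (D hG) := by
  have hfinE : Finite (V ≃ₗ[K] V) := Finite.of_injective (fun g => g.toEquiv)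
    fun g h e => LinearEquiv.toEquiv_injective e
  have hfin : Finite (P Q) := inferInstance
  have hfin2 : Finite (MulAut (P Q)) := inferInstance
  let f : B →* Cfsg.Out (P Q) := (QuotientGroup.mk' (Cfsg.Inn (P Q))).comp B.subtype
  have h1 : (MulAut.conj (G := P Q)).range.relIndex B = Nat.card f.range := by
    rw [Subgroup.relIndex, ← Subgroup.index_ker]
    congr 1
    rw [← MonoidHom.comap_ker, QuotientGroup.ker_mk']
    rfl
  rw [h1]
  apply Subgroup.card_dvd_of_le
  rintro _ ⟨⟨α, hα⟩, rfl⟩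
  obtain ⟨M, rfl, hM⟩ := hB α hα
  exact mem_D.2 ⟨M, hM, rfl⟩

/-- the facts on triality -/
structure Tri {V : Type v} [AddCommGroup V] [Module K V] (Q : QuadraticForm K V) (hG : Good Q) : Prop where
  index : (Psi Q).range.index = 3
  rho : ∃ (ρ : MulAut (P Q)) (r : O Q), ρ ∉ (Psi Q).range ∧ ρ ^ 3 = 1 ∧
    Psi Q (ofO Q r) * ρ * (Psi Q (ofO Q r))⁻¹ = ρ⁻¹
  card : ¬ 3 ∣ Nat.card (D hG)

theorem tri_four [Finite K] (hG : Good (Cfsg.Agent.LieClassical.QuadForms.plusForm 4 K)) : Tri _ hG := by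
  have := Fintype.ofFinite K
  refine ⟨?_, ?_, ?_⟩
  · have h2 := Cfsg.Agent.AutOrth.Final.index_plus_four (F := K)
    rw [Cfsg.Agent.AutOrth.Main.plusForm_eq] at h2
    exact h2
  · obtain ⟨ρ, hρ⟩ := Cfsg.Agent.H989.OutOrth.Tri.exists_rho hG
    refine ⟨ρ, ⟨_, Cfsg.Agent.ClassicalGeometry.Triality.kap_mem⟩, hρ.not_mem_range hG, hρ.cube hG, ?_⟩
    have h1 := hρ.kap_inv hG
    have h2 : (Psi _ (Cfsg.Agent.H989.OutOrth.Tri.kapG K))⁻¹ = Psi _ (Cfsg.Agent.H989.OutOrth.Tri.kapG K) := by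
      rw [inv_eq_iff_mul_eq_one, ← map_mul, Cfsg.Agent.H989.OutOrth.Tri.kapG_mul_kapG, map_one]
    show Psi _ (Cfsg.Agent.H989.OutOrth.Tri.kapG K) * ρ * (Psi _ (Cfsg.Agent.H989.OutOrth.Tri.kapG K))⁻¹ = ρ⁻¹
    rw [h2]
    exact h1
  · obtain ⟨p, hp⟩ := CharP.exists K
    have hpp : p.Prime := CharP.char_is_prime K p
    have : Fact p.Prime := ⟨hpp⟩
    obtain ⟨f, hf⟩ := FiniteField.card K p
    have hcard := Cfsg.Agent.H989.OutOrth.Four.card_Psi (F := K) f.pos hf.2
    have hD := Cfsg.Agent.H989.OutOrth.Forms.card_D_eq f.pos hf.2 hG (Cfsg.Agent.H989.OutOrth.Four.sg_surj4 hG) hcard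
    rw [hD]
    split_ifs <;> norm_num

end Cfsg.Agent.H809.D4
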