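import Cfsg.Agent.H809.D4.RowGen
import Cfsg.Agent.H464.ExtQO

/-!
# S4832, POmega8+(q): the rows q = 2, 3, 5 (helper809)
-/

set_option autoImplicit false

open scoped ComplexConjugate commutatorElement
open Cfsg

namespace Cfsg.Agent.H809.D4

open Cfsg.Agent.H576.Ext Cfsg.Agent.H477.HC Cfsg.Agent.H477.HC.CForm Cfsg.Agent.H53.HC Cfsg.Agent.Characters Module
  QuadraticMap Cfsg.Agent.LieClassical.OrthCore Cfsg.Agent.LieClassical.OrthTrans
  Cfsg.Agent.LieClassical.OrthSimple Cfsg.Agent.ClassicalGeometry.OrthSemi Cfsg.Agent.ClassicalGeometry.OrthAut1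
  Cfsg.Agent.H624.ExtO Cfsg.Agent.H989.OutOrth.Basic

universe u v

/-- characters fixed by the subgroup of index three -/
theorem ext_of_le {S : Type u} [Group S] [Finite S] (hZ : Subgroup.center S = ⊥) {θ : S → ℂ}
    (hθ : IsIrrCharacter S θ) (A : Subgroup (MulAut S)) (hA : A.index = 3)
    (hext : ExtTo θ A) (hI : (MulAut.conj (G := S)).range ≤ A) (hle : A ≤ stab θ)
    (h9 : ¬ 3 ^ 2 ∣ Nat.card (Cfsg.Out S)) : ExtTo θ (stab θ) := by
  have hIs := hI.trans hle
  apply extTo_of_sylow hZ hθ hIs le_rfl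
  intro ℓ hℓ
  by_cases h : ℓ = 3
  · subst h
    apply exists_sylow_part hZ hθ hℓ hIs le_rfl
    intro hd
    apply h9
    have h1 := Subgroup.relIndex_mul_index hIs
    have h2 : (MulAut.conj (G := S)).range.index = Nat.card (Cfsg.Out S) := rfl
    rw [← h2, ← h1]
    exact Dvd.dvd.mul_right hd _
  · refine ⟨A, hI, hle, fun hd => ?_, hext⟩
    have h1 := Subgroup.relIndex_mul_index hle
    rw [hA] at h1
    have h2 : ℓ ∣ 3 := by rw [← h1]; exact Dvd.dvd.mul_right hd _
    exact h ((Nat.prime_dvd_prime_iff_eq hℓ Nat.prime_three).1 h2)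

section

variable (K : Type u) [Field K] [Finite K]

/-- the order of `Out` for a prime field -/
theorem card_out_prime {p : ℕ} [Fact p.Prime] (hp : Nat.card K = p) :
    Nat.card (Cfsg.Out (P (quadOf (CForm.plusF K 4) (isQuad_plus K 4)))) = 3 * (if p = 2 then 2 else 8) := by
  have := Fintype.ofFinite K
  have h1 := Cfsg.Agent.H989.OutOrth.Four.card_Out4 (F := K) (p := p) (f := 1) le_rfl (by
    rw [pow_one, ← hp, Nat.card_eq_fintype_card])
  rw [mul_one] at h1
  exact transport K (p := fun Q _ => Nat.card (Cfsg.Out (P Q)) = 3 * (if p = 2 then 2 else 8)) (fun _ => h1)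
    (good_plusF K (by norm_num))

/-- **the row `q = 2`** -/
theorem row_two (hq : Nat.card K = 2) {r : ℕ} (hr : r.Prime) (hrq : ¬ r ∣ Nat.card K)
    (hd : r ∣ Nat.card (POmega K (quadFormPlus 4 K))) : HasExt r (POmega K (quadFormPlus 4 K)) := by
  have : Fact (Nat.Prime 2) := ⟨Nat.prime_two⟩
  have hchar : CharP K 2 := by
    obtain ⟨p, hp⟩ := CharP.exists K
    have hpp : p.Prime := CharP.char_is_prime K p
    have : Fact p.Prime := ⟨hpp⟩
    obtain ⟨s, hs⟩ := card_pow K p
    have h2 : p ∣ 2 := by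
      rw [← hq, hs]
      apply dvd_pow_self
      rintro rfl
      rw [hs] at hq
      norm_num at hq
    have : p = 2 := (Nat.prime_dvd_prime_iff_eq hpp Nat.prime_two).1 h2
    rwa [this] at hp
  obtain ⟨χ, hχ⟩ := im_plus_main K (p := 2) (m := 4) (by norm_num) hr (by
    rintro rfl
    rw [hq] at hrq
    exact hrq dvd_rfl) hd
  obtain ⟨e⟩ := pomega_equiv K
  have hfi := finite_iso (CForm.plusF K 4)
  have hfE : Finite ↥(E (quadOf (CForm.plusF K 4) (isQuad_plus K 4))) :=
    Finite.of_surjective _ (toE_surjective _ (good_plusF K (by norm_num)))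
  have : Finite (POmega K (quadFormPlus 4 K)) := Finite.of_equiv _ e.toEquiv.symm
  have hsq : Squarefree (Nat.card (Cfsg.Out (P (quadOf (CForm.plusF K 4) (isQuad_plus K 4))))) := by
    rw [card_out_prime K hq, if_pos rfl]
    rw [Nat.squarefree_mul (by norm_num)]
    exact ⟨Nat.prime_three.prime.squarefree, Nat.prime_two.prime.squarefree⟩
  have hcyc : SylCyc (POmega K (quadFormPlus 4 K)) := SylCyc.of_equiv e (sylCyc_of_squarefree hsq)
  refine ⟨χ, χ.2, hχ, extTo_of_sylCyc ?_ χ.2 (range_le_stab (Core.isIrr_isClassFunction χ.2)) le_rfl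
    (SylCycIn.mono le_top hcyc)⟩
  exact Cfsg.Agent.H464.ExtR3.center_plus (by norm_num)

/-- **the rows `q = 3`, `5`**, given the rank three characters -/
theorem row_odd_prime {p : ℕ} (hp : p = 3 ∨ p = 5) (hq : Nat.card K = p) {r : ℕ} (hr : r.Prime)
    (hrq : ¬ r ∣ Nat.card K) (hd : r ∣ Nat.card (POmega K (quadFormPlus 4 K))) {a b : ℕ}
    (ha : ((Nat.card K : ℤ) ^ 2 - 1) * a = Nat.card K * (Nat.card K ^ (4 - 2) + 1) * ((Nat.card K : ℤ) ^ 4 - 1))
    (hb : ((Nat.card K : ℤ) ^ 2 - 1) * b = Nat.card K ^ 2 * ((Nat.card K : ℤ) ^ (2 * 4 - 2) - 1))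
    (H : r ∣ a ∨ r ∣ b → ∃ θ : P (quadOf (CForm.plusF K 4) (isQuad_plus K 4)) → ℂ, IsIrrCharacter _ θ ∧
      r ∣ charDegree θ ∧ (Psi (quadOf (CForm.plusF K 4) (isQuad_plus K 4))).range ≤ stab θ ∧
      ExtTo θ (Psi (quadOf (CForm.plusF K 4) (isQuad_plus K 4))).range) :
    HasExt r (POmega K (quadFormPlus 4 K)) := by
  have hpp : p.Prime := by rcases hp with rfl | rfl <;> norm_num
  have : Fact p.Prime := ⟨hpp⟩
  have hG := good_plusF K (m := 4) (by norm_num)
  have hfi := finite_iso (CForm.plusF K 4)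
  have hfE : Finite ↥(E (quadOf (CForm.plusF K 4) (isQuad_plus K 4))) :=
    Finite.of_surjective _ (toE_surjective _ hG)
  have hfP : Finite (P (quadOf (CForm.plusF K 4) (isQuad_plus K 4))) := inferInstance
  have key := dvd_key K hr hrq hd
  have hab : r ∣ a ∨ r ∣ b := by
    rw [hq] at key ha hb hrq
    rcases hp with rfl | rfl
    · have e1 : a = 300 := by
        have h1 : (8 : ℤ) * a = 2400 := by push_cast at ha; linarith
        omega
      have e2 : b = 819 := by
        have h1 : (8 : ℤ) * b = 6552 := by push_cast at hb; linarith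
        omega
      subst e1 e2
      have h1 : r ∣ 2 ^ 5 * 5 ^ 2 * 7 * 13 := by norm_num at key ⊢; exact key
      rcases hr.dvd_mul.1 h1 with h | h
      · rcases hr.dvd_mul.1 h with h | h
        · rcases hr.dvd_mul.1 h with h | h
          · have := hr.dvd_of_dvd_pow h
            exact Or.inl (this.trans (by norm_num))
          · have := hr.dvd_of_dvd_pow h
            exact Or.inl (this.trans (by norm_num))
        · exact Or.inr (h.trans (by norm_num))
      · exact Or.inr (h.trans (by norm_num))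
    · have e1 : a = 3380 := by
        have h1 : (24 : ℤ) * a = 81120 := by push_cast at ha; linarith
        omega
      have e2 : b = 16275 := by
        have h1 : (24 : ℤ) * b = 390600 := by push_cast at hb; linarith
        omega
      subst e1 e2
      have h1 : r ∣ 2 ^ 5 * 13 ^ 2 * 3 ^ 2 * 7 * 31 := by norm_num at key ⊢; exact key
      rcases hr.dvd_mul.1 h1 with h | h
      · rcases hr.dvd_mul.1 h with h | h
        · rcases hr.dvd_mul.1 h with h | h
          · rcases hr.dvd_mul.1 h with h | h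
            · have := hr.dvd_of_dvd_pow h
              exact Or.inl (this.trans (by norm_num))
            · have := hr.dvd_of_dvd_pow h
              exact Or.inl (this.trans (by norm_num))
          · have := hr.dvd_of_dvd_pow h
            exact Or.inr (this.trans (by norm_num))
        · exact Or.inr (h.trans (by norm_num))
      · exact Or.inr (h.trans (by norm_num))
  obtain ⟨θ, hθ, hdeg, hle, hext⟩ := H hab
  have hT := transport K (fun hG => tri_four hG) hG
  refine hasExt_pomega K ⟨θ, hθ, hdeg, ext_of_le (center_P _ hG) hθ _ hT.index hext Inn_le_range hle ?_⟩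
  rw [card_out_prime K hq]
  rcases hp with rfl | rfl <;> norm_num

end

end Cfsg.Agent.H809.D4
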